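import Mathlib
import Cfsg.Agent.Lib.Helper98.A8.Pkgs

set_option autoImplicit false

/-!
Package [CYC] of S2553: if `p ∈ {5, 7}` divides the order of a group `H` of permutations of eight
points, then every permutation of order `p` has a conjugate in `H`.
-/

namespace Cfsg.Agent.Lib.Helper47.A8

theorem pkgCyc : Cfsg.Agent.Lib.Helper98.A8.PkgCyc := by
  intro H p hp hdvd g hg
  have hpp : p.Prime := by
    rcases hp with rfl | rfl <;> norm_num
  have : Fact p.Prime := ⟨hpp⟩
  have hlt : Fintype.card (Fin 8) < 2 * p := by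
    rcases hp with rfl | rfl <;> simp
  -- Cauchy: an element of order `p` in `H`
  obtain ⟨h, hh⟩ := exists_prime_orderOf_dvd_card' (G := ↥H) p hdvd
  have hh' : orderOf (h : Equiv.Perm (Fin 8)) = p := by
    rw [Subgroup.orderOf_coe]; exact hh
  have hcg : g.IsCycle :=
    Equiv.Perm.isCycle_of_prime_order' (by rw [hg]; exact hpp) (by rw [hg]; exact hlt)
  have hch : (h : Equiv.Perm (Fin 8)).IsCycle :=
    Equiv.Perm.isCycle_of_prime_order' (by rw [hh']; exact hpp) (by rw [hh']; exact hlt)
  have hconj : IsConj g (h : Equiv.Perm (Fin 8)) := by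
    rw [hcg.isConj_iff hch, ← hcg.orderOf, ← hch.orderOf, hg, hh']
  obtain ⟨c, hc⟩ := isConj_iff.mp hconj
  exact ⟨c, by rw [hc]; exact h.2⟩

end Cfsg.Agent.Lib.Helper47.A8
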